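import Cfsg.Agent.H50.J1Spectrum.Invariant

/-!
# Centralisers of elements of order 7 and 11 in the Janko group
-/

set_option autoImplicit false
set_option maxRecDepth 100000
set_option maxHeartbeats 4000000

namespace Cfsg.Agent.H50.J1Spectrum

open Cfsg.Spor Matrix
open Fin.NatCast Fin.CommRing

theorem eq_sum_pow_of_commute (A g K : M7) (hK : (Matrix.of fun r i : Fin 7 => ((A ^ (i : ℕ)) *ᵥ e7 0) r) * K = 1)
    (h : Commute g A) : ∃ c : Fin 7 → ZMod 11, g = ∑ i, c i • A ^ (i : ℕ) := by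
  set M : M7 := Matrix.of fun r i : Fin 7 => ((A ^ (i : ℕ)) *ᵥ e7 0) r
  refine ⟨K *ᵥ (g *ᵥ e7 0), ?_⟩
  set p := ∑ i, (K *ᵥ (g *ᵥ e7 0)) i • A ^ (i : ℕ)
  have hcol : ∀ i : Fin 7, M *ᵥ e7 i = (A ^ (i : ℕ)) *ᵥ e7 0 := fun i => by
    rw [mulVec_e7]; rfl
  have hpv : p *ᵥ e7 0 = g *ᵥ e7 0 := by
    have e : M *ᵥ (K *ᵥ (g *ᵥ e7 0)) = g *ᵥ e7 0 := by rw [Matrix.mulVec_mulVec, hK, Matrix.one_mulVec]
    conv_rhs => rw [← e, mulVec_eq_sum]
    simp only [p, Matrix.sum_mulVec, Matrix.smul_mulVec, hcol]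
  have hp : Commute p A := Commute.sum_left _ _ _ fun i _ => ((Commute.pow_self A _)).smul_left _
  have hM : g * M = p * M := by
    refine Matrix.ext fun r i => ?_
    have e1 : ∀ B : M7, (B * M) r i = (B *ᵥ ((A ^ (i : ℕ)) *ᵥ e7 0)) r := fun B => by
      rw [← hcol, Matrix.mulVec_mulVec, mulVec_e7]
    rw [e1, e1, Matrix.mulVec_mulVec, Matrix.mulVec_mulVec, (h.pow_right _).eq, (hp.pow_right _).eq,
      ← Matrix.mulVec_mulVec, ← Matrix.mulVec_mulVec, hpv]
  calc g = g * (M * K) := by rw [hK, mul_one]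
    _ = p := by rw [← mul_assoc, hM, mul_assoc, hK, mul_one]

/-- The Frobenius map on polynomials in a matrix. -/
theorem sum_pow_eleven (A : M7) (c : Fin 7 → ZMod 11) (e : Fin 7 → ℕ) :
    (∑ i, c i • A ^ e i) ^ 11 = ∑ i, c i • A ^ (11 * e i) := by
  haveI : Fact (Nat.Prime 11) := ⟨by norm_num⟩
  have hp : (∑ i, Polynomial.C (c i) * Polynomial.X ^ e i : Polynomial (ZMod 11)) ^ 11
      = ∑ i, Polynomial.C (c i) * Polynomial.X ^ (11 * e i) := by
    rw [sum_pow_char 11]
    refine Finset.sum_congr rfl fun i _ => ?_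
    rw [mul_pow, ← Polynomial.C_pow, ZMod.pow_card, ← pow_mul, mul_comm (e i)]
  have h := congrArg (Polynomial.aeval A) hp
  simpa [map_sum, Algebra.smul_def] using h

theorem krylov_U : (Matrix.of fun r i : Fin 7 => ((mU ^ (i : ℕ)) *ᵥ e7 0) r) * mUKrylovInv = 1 := by
  have hc : ∀ i : ℕ, (mU ^ i) *ᵥ e7 0 = (fun v => mU *ᵥ v)^[i] (e7 0) := by
    intro i
    induction i with
    | zero => simp
    | succ i ih => rw [Function.iterate_succ_apply', ← ih, pow_succ', Matrix.mulVec_mulVec]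
  simp only [hc]
  decide +kernel

theorem krylov_X : (Matrix.of fun r i : Fin 7 => ((jankoMatrixX ^ (i : ℕ)) *ᵥ e7 0) r) *
    (Matrix.of fun r i : Fin 7 => if r + i = 0 then (1 : ZMod 11) else 0) = 1 := by
  have hc : ∀ i : ℕ, (jankoMatrixX ^ i) *ᵥ e7 0 = (fun v => jankoMatrixX *ᵥ v)^[i] (e7 0) := by
    intro i
    induction i with
    | zero => simp
    | succ i ih => rw [Function.iterate_succ_apply', ← ih, pow_succ', Matrix.mulVec_mulVec]
  simp only [hc]
  decide +kernel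

/-- The centraliser of an element of order 11 has exponent 11. -/
theorem pow_eleven_eq_one_of_commute_gU {g : GL (Fin 7) (ZMod 11)} (hg : g ∈ J1) (h : Commute g gU) :
    g ^ 11 = 1 := by
  have h' : Commute (g : M7) mU := by
    have := congrArg Units.val h.eq
    rwa [Units.val_mul, Units.val_mul, coe_gU] at this
  obtain ⟨c, hc⟩ := eq_sum_pow_of_commute mU (g : M7) mUKrylovInv krylov_U h'
  have hU : mU ^ 11 = 1 := by
    have h11 := pow_orderOf_eq_one gU
    rw [orderOf_gU] at h11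
    rw [← coe_gU, ← Units.val_pow_eq_pow_val, h11, Units.val_one]
  have hs : ((g ^ 11 : GL (Fin 7) (ZMod 11)) : M7) = (∑ i, c i) • (1 : M7) := by
    rw [Units.val_pow_eq_pow_val, hc, sum_pow_eleven, Finset.sum_smul]
    refine Finset.sum_congr rfl fun i _ => ?_
    rw [pow_mul, hU, one_pow]
  generalize hsdef : ∑ i, c i = s at hs
  have hmem : g ^ 11 ∈ J1 := pow_mem hg 11
  have horth := orth_of_mem hmem
  have hphi := phi_of_mem hmem (e7 0) (e7 1) (e7 3)
  rw [hs] at horth hphi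
  have h1 : s * s = 1 := by
    have := congrFun (congrFun horth 0) 0
    simpa [Matrix.transpose_smul] using this
  simp only [Matrix.smul_mulVec, Matrix.one_mulVec] at hphi
  have key : ∀ s : ZMod 11, s * s = 1 → phi (s • e7 0) (s • e7 1) (s • e7 3) = phi (e7 0) (e7 1) (e7 3) → s = 1 := by
    decide +kernel
  rw [key s h1 hphi, one_smul] at hs
  exact Units.ext hs

theorem mX_pow_seven' : jankoMatrixX ^ 7 = 1 := by
  have := congrArg Units.val (orderOf_jankoX ▸ pow_orderOf_eq_one jankoX)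
  rwa [Units.val_pow_eq_pow_val, Units.val_one] at this

theorem exists_coeff_of_commute_jankoX {g : GL (Fin 7) (ZMod 11)} (h : Commute g jankoX) :
    ∃ c : Fin 7 → ZMod 11, (g : M7) = ∑ i, c i • jankoMatrixX ^ (i : ℕ) := by
  refine eq_sum_pow_of_commute jankoMatrixX (g : M7) _ krylov_X ?_
  exact congrArg Units.val h.eq

theorem pow_1331_of_commute_jankoX {g : GL (Fin 7) (ZMod 11)} (h : Commute g jankoX) : g ^ 1331 = g := by
  obtain ⟨c, hc⟩ := exists_coeff_of_commute_jankoX h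
  refine Units.ext ?_
  rw [Units.val_pow_eq_pow_val, hc, show 1331 = 11 * 11 * 11 by norm_num, pow_mul, pow_mul, sum_pow_eleven,
    sum_pow_eleven, sum_pow_eleven]
  refine Finset.sum_congr rfl fun i _ => ?_
  rw [show 11 * (11 * (11 * (i : ℕ))) = 7 * (190 * (i : ℕ)) + i by ring, pow_add, pow_mul, mX_pow_seven',
    one_pow, one_mul]

/-- The circulant matrix that is constant on the squares and on the non-squares. -/
def circ (a b c : ZMod 11) : M7 :=
  Matrix.of fun r s => if s - r = 0 then a else if s - r = 1 ∨ s - r = 2 ∨ s - r = 4 then b else c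

theorem circ_cases : ∀ a b c : ZMod 11,
    ((circ a b c)ᵀ * circ a b c) 0 0 = 1 → ((circ a b c)ᵀ * circ a b c) 0 1 = 0 →
    phi (circ a b c *ᵥ e7 0) (circ a b c *ᵥ e7 1) (circ a b c *ᵥ e7 3) = phi (e7 0) (e7 1) (e7 3) →
    phi (circ a b c *ᵥ e7 0) (circ a b c *ᵥ e7 1) (circ a b c *ᵥ e7 2) = phi (e7 0) (e7 1) (e7 2) →
    a = 1 ∧ b = 0 ∧ c = 0 := by
  decide +kernel

theorem mX_pow_apply (i : ℕ) : jankoMatrixX ^ i = Matrix.of fun r s : Fin 7 =>
    if s = r + (i : Fin 7) then (1 : ZMod 11) else 0 := by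
  have hX : jankoMatrixX = Matrix.of fun r s : Fin 7 => if s = r + 1 then (1 : ZMod 11) else 0 := by
    decide +kernel
  induction i with
  | zero =>
    ext r s
    simp [Matrix.one_apply, eq_comm]
  | succ i ih =>
    rw [pow_succ, ih, hX]
    ext r s
    simp only [Matrix.mul_apply, Matrix.of_apply, ite_mul, one_mul, zero_mul, Finset.sum_ite_eq',
      Finset.mem_univ, if_true, Nat.cast_succ, add_assoc]

theorem sum_pow_apply (c : Fin 7 → ZMod 11) (r s : Fin 7) :
    (∑ i, c i • jankoMatrixX ^ (i : ℕ)) r s = c (s - r) := by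
  simp only [Matrix.sum_apply, Matrix.smul_apply, mX_pow_apply, Matrix.of_apply, smul_eq_mul, mul_ite,
    mul_one, mul_zero, Fin.cast_val_eq_self]
  rw [Finset.sum_eq_single (s - r)]
  · simp
  · intro b _ hb
    rw [if_neg]
    intro e
    exact hb (by rw [e, add_sub_cancel_left])
  · simp

theorem eq_one_of_commute_jankoX_of_pow {g : GL (Fin 7) (ZMod 11)} (hg : g ∈ J1) (h : Commute g jankoX)
    (hp : g ^ 11 = g) : g = 1 := by
  obtain ⟨c, hc⟩ := exists_coeff_of_commute_jankoX h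
  have h4 : ∀ i : Fin 7, c i = c (4 * i) := by
    intro i
    have e : (∑ j, c j • jankoMatrixX ^ (11 * (j : ℕ))) = (g : M7) := by
      rw [← sum_pow_eleven, ← hc, ← Units.val_pow_eq_pow_val, hp]
    have e2 := congrFun (congrFun e 0) (4 * i)
    simp only [Matrix.sum_apply, Matrix.smul_apply, mX_pow_apply, Matrix.of_apply, smul_eq_mul, mul_ite,
      mul_one, mul_zero, Nat.cast_mul, Fin.cast_val_eq_self, zero_add] at e2
    rw [hc, sum_pow_apply, sub_zero, Finset.sum_eq_single i] at e2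
    · have key : ∀ i : Fin 7, 4 * i = ((11 : ℕ) : Fin 7) * i := by decide
      rw [if_pos (key i)] at e2
      exact e2
    · intro b _ hb
      have key : ∀ i b : Fin 7, b ≠ i → ¬ 4 * i = ((11 : ℕ) : Fin 7) * b := by decide
      rw [if_neg (key i b hb)]
    · simp
  have e11 : c 1 = c 4 := h4 1
  have e12 : c 4 = c 2 := h4 4
  have e31 : c 3 = c 5 := h4 3
  have e32 : c 5 = c 6 := h4 5
  have hcirc : (g : M7) = circ (c 0) (c 1) (c 3) := by
    ext r s
    rw [hc, sum_pow_apply]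
    generalize hd : s - r = d
    simp only [circ, Matrix.of_apply, hd]
    fin_cases d <;> simp [e11, e12, e31, e32]
  have horth := orth_of_mem hg
  have hphi := phi_of_mem hg
  rw [hcirc] at horth hphi
  obtain ⟨ha, hb, hc'⟩ := circ_cases (c 0) (c 1) (c 3) (by rw [horth]; rfl) (by rw [horth]; rfl)
    (hphi _ _ _) (hphi _ _ _)
  refine Units.ext ?_
  rw [hcirc, ha, hb, hc']
  decide +kernel

end Cfsg.Agent.H50.J1Spectrum
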