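import Mathlib

/-!
# Groups with element orders 1, 7, 11

The semidirect product of the functions `Fin N × ZMod 7 → ZMod 11` with zero sums along the second
coordinate by the cyclic shift of order `7`.
-/

set_option autoImplicit false

namespace Cfsg.Agent.H50.J1Spectrum

variable (N : ℕ)

/-- Functions with zero sum in every fibre. -/
def zeroSum : AddSubgroup (Fin N × ZMod 7 → ZMod 11) where
  carrier := {f | ∀ n, ∑ t, f (n, t) = 0}
  zero_mem' := by simp
  add_mem' := fun ha hb n => by simp [Finset.sum_add_distrib, ha n, hb n]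
  neg_mem' := fun ha n => by simp [ha n]

theorem shift_mem (s : ZMod 7) {f : Fin N × ZMod 7 → ZMod 11} (hf : f ∈ zeroSum N) :
    (fun x => f (x.1, x.2 + s)) ∈ zeroSum N := fun n => by
  rw [← hf n]
  exact Fintype.sum_equiv (Equiv.addRight s) _ _ fun t => rfl

/-- The shift by `s`. -/
def shiftEquiv (s : ZMod 7) : zeroSum N ≃+ zeroSum N where
  toFun f := ⟨_, shift_mem N s f.2⟩
  invFun f := ⟨_, shift_mem N (-s) f.2⟩
  left_inv f := by ext x; simp
  right_inv f := by ext x; simp
  map_add' f g := by ext x; simp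

/-- The shift action. -/
def shiftHom : Multiplicative (ZMod 7) →* MulAut (Multiplicative (zeroSum N)) where
  toFun s := AddEquiv.toMultiplicative (shiftEquiv N s.toAdd)
  map_one' := by
    refine MulEquiv.ext fun f => ?_
    apply Multiplicative.toAdd.injective
    ext x
    simp [shiftEquiv]
  map_mul' s t := by
    refine MulEquiv.ext fun f => ?_
    apply Multiplicative.toAdd.injective
    ext x
    simp [shiftEquiv, add_assoc]

/-- The group of order `11 ^ (6 N) * 7`. -/
abbrev Ext := SemidirectProduct (Multiplicative (zeroSum N)) (Multiplicative (ZMod 7)) (shiftHom N)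

theorem shiftHom_apply (s : Multiplicative (ZMod 7)) (f : Multiplicative (zeroSum N)) (x : Fin N × ZMod 7) :
    ((shiftHom N s f).toAdd : Fin N × ZMod 7 → ZMod 11) x
      = (f.toAdd : Fin N × ZMod 7 → ZMod 11) (x.1, x.2 + s.toAdd) := rfl

theorem pow_left (g : Ext N) (m : ℕ) (x : Fin N × ZMod 7) :
    (((g ^ m).left).toAdd : Fin N × ZMod 7 → ZMod 11) x
      = ∑ k ∈ Finset.range m, (g.left.toAdd : Fin N × ZMod 7 → ZMod 11) (x.1, x.2 + k * g.right.toAdd) := by
  induction m generalizing x with
  | zero => simp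
  | succ m ih =>
    rw [pow_succ', SemidirectProduct.mul_left, toAdd_mul, AddSubgroup.coe_add, Pi.add_apply, shiftHom_apply,
      ih, Finset.sum_range_succ']
    rw [add_comm]
    refine congrArg₂ (· + ·) (Finset.sum_congr rfl fun k _ => congrArg _ (Prod.ext rfl ?_)) (by simp)
    push_cast; ring

theorem ext_ext {g h : Ext N} (hl : ∀ x, (g.left.toAdd : Fin N × ZMod 7 → ZMod 11) x
      = (h.left.toAdd : Fin N × ZMod 7 → ZMod 11) x) (hr : g.right = h.right) : g = h :=
  SemidirectProduct.ext (Multiplicative.toAdd.injective (Subtype.ext (funext hl))) hr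

theorem sum_range_mul {s : ZMod 7} (hs : s ≠ 0) (a : ZMod 7 → ZMod 11) (t : ZMod 7) :
    ∑ k ∈ Finset.range 7, a (t + k * s) = ∑ u, a u := by
  haveI : Fact (Nat.Prime 7) := ⟨by norm_num⟩
  refine Finset.sum_bij (fun k _ => t + (k : ZMod 7) * s) (by simp) ?_ ?_ (fun _ _ => rfl)
  · intro i hi j hj h
    have h' : (i : ZMod 7) = j := mul_right_cancel₀ hs (add_left_cancel h)
    rw [Finset.mem_range] at hi hj
    have := (ZMod.natCast_eq_natCast_iff' i j 7).mp h'
    rwa [Nat.mod_eq_of_lt hi, Nat.mod_eq_of_lt hj] at this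
  · intro u _
    refine ⟨((u - t) / s).val, Finset.mem_range.mpr (ZMod.val_lt _), ?_⟩
    rw [ZMod.natCast_zmod_val, div_mul_cancel₀ _ hs, add_sub_cancel]

theorem orderOf_cases (g : Ext N) : orderOf g = 1 ∨ orderOf g = 7 ∨ orderOf g = 11 := by
  by_cases hs : g.right.toAdd = 0
  · have h : g ^ 11 = 1 := by
      refine ext_ext N (fun x => ?_) ?_
      · rw [pow_left]
        simp [hs]
        exact mul_eq_zero_of_left (by decide) _
      · change SemidirectProduct.rightHom (g ^ 11) = 1
        rw [map_pow]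
        apply Multiplicative.toAdd.injective
        simp [SemidirectProduct.rightHom, hs]
    rcases (Nat.dvd_prime (by norm_num : Nat.Prime 11)).mp (orderOf_dvd_of_pow_eq_one h) with h | h
    · exact Or.inl h
    · exact Or.inr (Or.inr h)
  · have h : g ^ 7 = 1 := by
      refine ext_ext N (fun x => ?_) ?_
      · rw [pow_left, sum_range_mul hs (fun u => (g.left.toAdd : Fin N × ZMod 7 → ZMod 11) (x.1, u))]
        exact (g.left.toAdd).2 x.1
      · change SemidirectProduct.rightHom (g ^ 7) = 1
        rw [map_pow]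
        apply Multiplicative.toAdd.injective
        simp only [toAdd_pow, toAdd_one, nsmul_eq_mul]
        rw [show ((7 : ℕ) : ZMod 7) = 0 from ZMod.natCast_self 7, zero_mul]
    rcases (Nat.dvd_prime (by norm_num : Nat.Prime 7)).mp (orderOf_dvd_of_pow_eq_one h) with h | h
    · exact Or.inl h
    · exact Or.inr (Or.inl h)

/-- The function `δ_{(n,0)} - δ_{(n,1)}`. -/
def deltaFun (n : Fin N) : zeroSum N :=
  ⟨fun x => if x.1 = n then (if x.2 = 0 then 1 else 0) - (if x.2 = 1 then 1 else 0) else 0, fun m => by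
    by_cases h : m = n
    · simp [h, Finset.sum_sub_distrib]
    · simp [h]⟩

theorem exists_orderOf_eleven (hN : 0 < N) : ∃ g : Ext N, orderOf g = 11 := by
  refine ⟨SemidirectProduct.inl (Multiplicative.ofAdd (deltaFun N ⟨0, hN⟩)), ?_⟩
  rcases orderOf_cases N (SemidirectProduct.inl (Multiplicative.ofAdd (deltaFun N ⟨0, hN⟩))) with h | h | h
  · exfalso
    rw [orderOf_eq_one_iff] at h
    have := congrArg (fun g : Ext N => (g.left.toAdd : Fin N × ZMod 7 → ZMod 11) (⟨0, hN⟩, 0)) h
    simp [deltaFun, (by decide : (0 : ZMod 7) ≠ 1), (by decide : (1 : ZMod 11) ≠ 0)] at this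
  · exfalso
    have h7 := pow_orderOf_eq_one (SemidirectProduct.inl (Multiplicative.ofAdd (deltaFun N ⟨0, hN⟩)) : Ext N)
    rw [h] at h7
    have := congrArg (fun g : Ext N => (g.left.toAdd : Fin N × ZMod 7 → ZMod 11) (⟨0, hN⟩, 0)) h7
    simp [pow_left, deltaFun, (by decide : (0 : ZMod 7) ≠ 1), (by decide : (1 : ZMod 11) ≠ 0)] at this
    have h70 : (7 : ZMod 11) ≠ 0 := by decide
    exact h70 this
  · exact h

theorem exists_orderOf_seven : ∃ g : Ext N, orderOf g = 7 := by
  haveI : Fact (Nat.Prime 7) := ⟨by norm_num⟩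
  refine ⟨SemidirectProduct.inr (Multiplicative.ofAdd 1), ?_⟩
  rw [orderOf_injective _ SemidirectProduct.inr_injective]
  rw [orderOf_ofAdd_eq_addOrderOf, ZMod.addOrderOf_one]

theorem lt_card : N < Nat.card (Ext N) := by
  classical
  have hinj : Function.Injective (fun o : Option (Fin N) =>
      (SemidirectProduct.inl (Multiplicative.ofAdd (o.elim 0 (deltaFun N))) : Ext N)) := by
    intro a b h
    have h' : ∀ n : Fin N, ((a.elim 0 (deltaFun N) : zeroSum N) : Fin N × ZMod 7 → ZMod 11) (n, 0)
        = ((b.elim 0 (deltaFun N) : zeroSum N) : Fin N × ZMod 7 → ZMod 11) (n, 0) := fun n =>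
      congrArg (fun g : Ext N => (g.left.toAdd : Fin N × ZMod 7 → ZMod 11) (n, 0)) h
    cases a with
    | none =>
      cases b with
      | none => rfl
      | some j => have := h' j; simp [deltaFun, (by decide : (0 : ZMod 7) ≠ 1), (by decide : (0 : ZMod 11) ≠ 1)] at this
    | some i =>
      cases b with
      | none => have := h' i; simp [deltaFun, (by decide : (0 : ZMod 7) ≠ 1), (by decide : (1 : ZMod 11) ≠ 0)] at this
      | some j =>
        have := h' i
        by_cases e : i = j
        · rw [e]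
        · simp [deltaFun, e, (by decide : (0 : ZMod 7) ≠ 1), (by decide : (1 : ZMod 11) ≠ 0)] at this
  haveI : Finite (Ext N) := Finite.of_equiv _ SemidirectProduct.equivProd.symm
  have := Nat.card_le_card_of_injective _ hinj
  simpa [Finite.card_option] using this

end Cfsg.Agent.H50.J1Spectrum
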