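import Cfsg.Agent.H50.J1Spectrum.Matrices

/-!
# An invariant three-form

The Janko generators are orthogonal and preserve an alternating three-form, so that the same holds
for the group they generate.
-/

set_option autoImplicit false
set_option maxRecDepth 100000
set_option maxHeartbeats 4000000

namespace Cfsg.Agent.H50.J1Spectrum

open Cfsg.Spor Matrix

/-- Vectors. -/
abbrev V7 := Fin 7 → ZMod 11

/-- The `3 × 3` minor in the coordinates `i, j, k`. -/
def det3 (i j k : Fin 7) (u v w : V7) : ZMod 11 :=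
  u i * (v j * w k - v k * w j) - u j * (v i * w k - v k * w i) + u k * (v i * w j - v j * w i)

/-- The three-form. -/
def phi (u v w : V7) : ZMod 11 :=
  det3 0 1 3 u v w + det3 0 2 6 u v w + det3 0 4 5 u v w + det3 1 2 4 u v w + det3 1 5 6 u v w
    + det3 2 3 5 u v w + det3 3 4 6 u v w

theorem phi_sum_left (c : Fin 7 → ZMod 11) (f : Fin 7 → V7) (v w : V7) :
    phi (∑ i, c i • f i) v w = ∑ i, c i * phi (f i) v w := by
  simp only [phi, det3, Finset.sum_apply, Pi.smul_apply, smul_eq_mul, Finset.sum_mul, mul_add,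
    Finset.sum_add_distrib, mul_sub, Finset.sum_sub_distrib, mul_assoc]

theorem phi_cycle (u v w : V7) : phi u v w = phi v w u := by
  simp only [phi, det3]; ring

theorem phi_neg (u v w : V7) : phi (-u) (-v) (-w) = -phi u v w := by
  simp only [phi, det3, Pi.neg_apply]; ring

/-- The `i`th basis vector. -/
def e7 (i : Fin 7) : V7 := fun j => if j = i then 1 else 0

theorem eq_sum_e7 (u : V7) : u = ∑ i, u i • e7 i := by
  funext j
  simp [Finset.sum_apply, e7]

theorem mulVec_eq_sum (A : M7) (u : V7) : A *ᵥ u = ∑ i, u i • (A *ᵥ e7 i) := by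
  conv_lhs => rw [eq_sum_e7 u]
  rw [Matrix.mulVec_sum]
  simp only [Matrix.mulVec_smul]

/-- Preservation of the form is decided on the basis. -/
theorem phi_invariant_of_basis (A : M7)
    (h : ∀ i j k, phi (A *ᵥ e7 i) (A *ᵥ e7 j) (A *ᵥ e7 k) = phi (e7 i) (e7 j) (e7 k)) (u v w : V7) :
    phi (A *ᵥ u) (A *ᵥ v) (A *ᵥ w) = phi u v w := by
  have h1 : ∀ u j k, phi (A *ᵥ u) (A *ᵥ e7 j) (A *ᵥ e7 k) = phi u (e7 j) (e7 k) := fun u j k => by
    conv_rhs => rw [eq_sum_e7 u]
    rw [mulVec_eq_sum A u, phi_sum_left, phi_sum_left]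
    exact Finset.sum_congr rfl fun i _ => by rw [h]
  have h2 : ∀ u v k, phi (A *ᵥ u) (A *ᵥ v) (A *ᵥ e7 k) = phi u v (e7 k) := fun u v k => by
    rw [phi_cycle, phi_cycle u v]
    conv_rhs => rw [eq_sum_e7 v]
    rw [mulVec_eq_sum A v, phi_sum_left, phi_sum_left]
    exact Finset.sum_congr rfl fun i _ => by rw [← phi_cycle, h1, phi_cycle u]
  rw [phi_cycle, phi_cycle, phi_cycle u, phi_cycle v]
  conv_rhs => rw [eq_sum_e7 w]
  rw [mulVec_eq_sum A w, phi_sum_left, phi_sum_left]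
  exact Finset.sum_congr rfl fun i _ => by
    rw [phi_cycle (A *ᵥ e7 i), h2, ← phi_cycle (e7 i)]

/-- The columns of a matrix give the images of the basis. -/
theorem mulVec_e7 (A : M7) (i : Fin 7) : A *ᵥ e7 i = fun r => A r i := by
  funext r
  simp [Matrix.mulVec, dotProduct, e7]

theorem phi_jankoX : ∀ i j k, phi (fun r => jankoMatrixX r i) (fun r => jankoMatrixX r j)
    (fun r => jankoMatrixX r k) = phi (e7 i) (e7 j) (e7 k) := by decide +kernel

theorem phi_jankoY : ∀ i j k, phi (fun r => jankoMatrixY r i) (fun r => jankoMatrixY r j)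
    (fun r => jankoMatrixY r k) = phi (e7 i) (e7 j) (e7 k) := by decide +kernel

/-- Orthogonal matrices preserving the form. -/
def stabForm : Subgroup (GL (Fin 7) (ZMod 11)) where
  carrier := {g | (g : M7)ᵀ * (g : M7) = 1 ∧
    ∀ u v w, phi ((g : M7) *ᵥ u) ((g : M7) *ᵥ v) ((g : M7) *ᵥ w) = phi u v w}
  one_mem' := by simp
  mul_mem' := by
    rintro g h ⟨g1, g2⟩ ⟨h1, h2⟩
    refine ⟨?_, fun u v w => ?_⟩
    · rw [Units.val_mul, Matrix.transpose_mul, Matrix.mul_assoc, ← Matrix.mul_assoc ((g : M7)ᵀ), g1,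
        Matrix.one_mul, h1]
    · simp only [Units.val_mul, ← Matrix.mulVec_mulVec, g2, h2]
  inv_mem' := by
    rintro g ⟨g1, g2⟩
    have hinv : ((g⁻¹ : GL (Fin 7) (ZMod 11)) : M7) = (g : M7)ᵀ := by
      calc ((g⁻¹ : GL (Fin 7) (ZMod 11)) : M7)
          = ((g : M7)ᵀ * (g : M7)) * ((g⁻¹ : GL (Fin 7) (ZMod 11)) : M7) := by rw [g1, Matrix.one_mul]
        _ = (g : M7)ᵀ := by rw [Matrix.mul_assoc, Units.mul_inv, Matrix.mul_one]
    refine ⟨?_, fun u v w => ?_⟩
    · rw [hinv, Matrix.transpose_transpose]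
      exact mul_eq_one_comm.mp g1
    · conv_rhs =>
        rw [← Matrix.one_mulVec u, ← Matrix.one_mulVec v, ← Matrix.one_mulVec w, ← Units.mul_inv g]
      simp only [← Matrix.mulVec_mulVec, g2]

theorem J1_le_stabForm : J1 ≤ stabForm := by
  rw [J1, Subgroup.closure_le]
  rintro g (rfl | rfl)
  · exact ⟨jankoX.inv_val, phi_invariant_of_basis _ fun i j k => by
      rw [mulVec_e7, mulVec_e7, mulVec_e7]; exact phi_jankoX i j k⟩
  · exact ⟨jankoY.inv_val, phi_invariant_of_basis _ fun i j k => by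
      rw [mulVec_e7, mulVec_e7, mulVec_e7]; exact phi_jankoY i j k⟩

theorem orth_of_mem {g : GL (Fin 7) (ZMod 11)} (hg : g ∈ J1) : (g : M7)ᵀ * (g : M7) = 1 :=
  (J1_le_stabForm hg).1

theorem phi_of_mem {g : GL (Fin 7) (ZMod 11)} (hg : g ∈ J1) (u v w : V7) :
    phi ((g : M7) *ᵥ u) ((g : M7) *ᵥ v) ((g : M7) *ᵥ w) = phi u v w :=
  (J1_le_stabForm hg).2 u v w

end Cfsg.Agent.H50.J1Spectrum
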