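import Mathlib

/-!
# Spectra of fourth powers

If the element orders of `J` are `7`, `11` or divisors of a number `L` that is the least common
multiple of three element orders, then a direct power `J^4` has the same spectrum as `J^3 × K`
for every group `K` whose element orders are exactly `1`, `7`, `11`.
-/

set_option autoImplicit false

namespace Cfsg.Agent.H50.J1Spectrum

theorem gcd_lcm_distrib (a b n : ℕ) : Nat.lcm (Nat.gcd a n) (Nat.gcd b n) = Nat.gcd (Nat.lcm a b) n := by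
  rcases Nat.eq_zero_or_pos n with rfl | hn
  · simp
  rcases Nat.eq_zero_or_pos a with rfl | ha
  · simp only [Nat.gcd_zero_left, Nat.lcm_zero_left]
    exact Nat.lcm_eq_left (Nat.gcd_dvd_right b n)
  rcases Nat.eq_zero_or_pos b with rfl | hb
  · simp only [Nat.gcd_zero_left, Nat.lcm_zero_right]
    exact Nat.lcm_eq_right (Nat.gcd_dvd_right a n)
  have h1 : Nat.gcd a n ≠ 0 := (Nat.gcd_pos_of_pos_right a hn).ne'
  have h2 : Nat.gcd b n ≠ 0 := (Nat.gcd_pos_of_pos_right b hn).ne'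
  have h3 : Nat.lcm a b ≠ 0 := Nat.lcm_ne_zero ha.ne' hb.ne'
  refine Nat.eq_of_factorization_eq (Nat.lcm_ne_zero h1 h2) (Nat.gcd_pos_of_pos_right _ hn).ne' fun p => ?_
  rw [Nat.factorization_lcm h1 h2, Nat.factorization_gcd h3 hn.ne', Nat.factorization_gcd ha.ne' hn.ne',
    Nat.factorization_gcd hb.ne' hn.ne', Nat.factorization_lcm ha.ne' hb.ne']
  simp only [Finsupp.sup_apply, Finsupp.inf_apply]
  omega

variable {J : Type*} [Group J] [Finite J]

theorem exists_orderOf_eq_gcd (x : J) (n : ℕ) : ∃ y : J, orderOf y = Nat.gcd (orderOf x) n := by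
  have h := orderOf_pos x
  have hd : Nat.gcd (orderOf x) n ∣ orderOf x := Nat.gcd_dvd_left _ _
  exact ⟨x ^ (orderOf x / Nat.gcd (orderOf x) n), orderOf_pow_orderOf_div h.ne' hd⟩

/-- The spectrum of `J^3 × K` equals that of `J^4`. -/
theorem range_orderOf_eq {K : Type*} [Group K] [Finite K] (L : ℕ)
    (hcase : ∀ g : J, orderOf g = 7 ∨ orderOf g = 11 ∨ orderOf g ∣ L)
    (h7 : ∃ a : J, orderOf a = 7) (h11 : ∃ a : J, orderOf a = 11)
    (hL : ∃ x y z : J, Nat.lcm (orderOf x) (Nat.lcm (orderOf y) (orderOf z)) = L)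
    (hK : ∀ k : K, orderOf k = 1 ∨ orderOf k = 7 ∨ orderOf k = 11)
    (hK7 : ∃ k : K, orderOf k = 7) (hK11 : ∃ k : K, orderOf k = 11) :
    Set.range (orderOf : J × J × J × K → ℕ) = Set.range (orderOf : J × J × J × J → ℕ) := by
  ext n
  simp only [Set.mem_range, Prod.exists, Prod.orderOf_mk]
  constructor
  · rintro ⟨a, b, c, k, rfl⟩
    rcases hK k with h | h | h
    · exact ⟨a, b, c, 1, by rw [h, orderOf_one]⟩
    · obtain ⟨d, hd⟩ := h7; exact ⟨a, b, c, d, by rw [h, hd]⟩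
    · obtain ⟨d, hd⟩ := h11; exact ⟨a, b, c, d, by rw [h, hd]⟩
  · rintro ⟨a, b, c, d, rfl⟩
    have special : ∀ e : J, orderOf e = 7 ∨ orderOf e = 11 → ∃ k : K, orderOf k = orderOf e := by
      rintro e (h | h)
      · obtain ⟨k, hk⟩ := hK7; exact ⟨k, by rw [h, hk]⟩
      · obtain ⟨k, hk⟩ := hK11; exact ⟨k, by rw [h, hk]⟩
    by_cases hd : orderOf d = 7 ∨ orderOf d = 11
    · obtain ⟨k, hk⟩ := special d hd; exact ⟨a, b, c, k, by rw [hk]⟩
    by_cases hc : orderOf c = 7 ∨ orderOf c = 11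
    · obtain ⟨k, hk⟩ := special c hc
      exact ⟨a, b, d, k, by rw [hk, Nat.lcm_comm (orderOf d)]⟩
    by_cases hb : orderOf b = 7 ∨ orderOf b = 11
    · obtain ⟨k, hk⟩ := special b hb
      refine ⟨a, c, d, k, ?_⟩
      rw [hk, ← Nat.lcm_assoc (orderOf c), Nat.lcm_comm (Nat.lcm (orderOf c) (orderOf d))]
    by_cases ha : orderOf a = 7 ∨ orderOf a = 11
    · obtain ⟨k, hk⟩ := special a ha
      refine ⟨b, c, d, k, ?_⟩
      rw [hk, ← Nat.lcm_assoc (orderOf c), ← Nat.lcm_assoc (orderOf b), Nat.lcm_comm _ (orderOf a)]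
    have hdiv : ∀ e : J, ¬(orderOf e = 7 ∨ orderOf e = 11) → orderOf e ∣ L := fun e he => by
      rcases hcase e with h | h | h
      · exact absurd (Or.inl h) he
      · exact absurd (Or.inr h) he
      · exact h
    set n := Nat.lcm (orderOf a) (Nat.lcm (orderOf b) (Nat.lcm (orderOf c) (orderOf d)))
    have hn : n ∣ L :=
      Nat.lcm_dvd (hdiv a ha) (Nat.lcm_dvd (hdiv b hb) (Nat.lcm_dvd (hdiv c hc) (hdiv d hd)))
    obtain ⟨x, y, z, hxyz⟩ := hL
    obtain ⟨x', hx⟩ := exists_orderOf_eq_gcd x n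
    obtain ⟨y', hy⟩ := exists_orderOf_eq_gcd y n
    obtain ⟨z', hz⟩ := exists_orderOf_eq_gcd z n
    refine ⟨x', y', z', 1, ?_⟩
    rw [orderOf_one, hx, hy, hz, Nat.lcm_one_right, gcd_lcm_distrib, gcd_lcm_distrib, hxyz]
    exact Nat.gcd_eq_right hn

end Cfsg.Agent.H50.J1Spectrum
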