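import Cfsg.Agent.H50.J1Spectrum.Centralizers
import Cfsg.Agent.H50.J1Spectrum.Spectrum
import Cfsg.Agent.H50.J1Spectrum.Extension

/-!
# Element orders of the Janko group, and groups isospectral to its fourth power

Everything here is relative to the order of the Janko group.
-/

set_option autoImplicit false

namespace Cfsg.Agent.H50.J1Spectrum

open Cfsg.Spor

/-- `jankoX` inside `J1`. -/
def jX : J1 := ⟨jankoX, jankoX_mem⟩

/-- The element of order 11 inside `J1`. -/
def jU : J1 := ⟨gU, gU_mem⟩

/-- The element of order 19 inside `J1`. -/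
def jW : J1 := ⟨gW, gW_mem⟩

/-- The element of order 15 inside `J1`. -/
def jZ : J1 := ⟨gZ, gZ_mem⟩

theorem orderOf_jX : orderOf jX = 7 := (Subgroup.orderOf_coe jX).symm.trans orderOf_jankoX
theorem orderOf_jU : orderOf jU = 11 := (Subgroup.orderOf_coe jU).symm.trans orderOf_gU
theorem orderOf_jW : orderOf jW = 19 := (Subgroup.orderOf_coe jW).symm.trans orderOf_gW
theorem orderOf_jZ : orderOf jZ = 15 := (Subgroup.orderOf_coe jZ).symm.trans orderOf_gZ

section General

variable {G : Type*} [Group G] [Finite G] {p : ℕ}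

/-- If the Sylow subgroups have prime order, the cyclic subgroups of that order are conjugate. -/
theorem exists_map_zpowers [Fact p.Prime] (hp : p.Prime) (hpp : ¬ p ^ 2 ∣ Nat.card G) {x y : G} (hx : orderOf x = p)
    (hy : orderOf y = p) : ∃ h : G, (Subgroup.zpowers x).map (MulAut.conj h).toMonoidHom = Subgroup.zpowers y := by
  have hc : ∀ z : G, orderOf z = p → Nat.card (Subgroup.zpowers z) = p ^ (Nat.card G).factorization p := by
    intro z hz
    have h1 : (Nat.card G).factorization p = 1 := by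
      refine le_antisymm ?_ ?_
      · by_contra h2
        exact hpp ((pow_dvd_pow p (by omega : 2 ≤ (Nat.card G).factorization p)).trans (Nat.ordProj_dvd _ _))
      · exact hp.factorization_pos_of_dvd Nat.card_pos.ne' (hz ▸ orderOf_dvd_natCard z)
    rw [Nat.card_zpowers, hz, h1, pow_one]
  obtain ⟨h, hh⟩ := MulAction.exists_smul_eq G (Sylow.ofCard (Subgroup.zpowers x) (hc x hx))
    (Sylow.ofCard (Subgroup.zpowers y) (hc y hy))
  refine ⟨h, ?_⟩
  have := congrArg (fun P : Sylow p G => (P : Subgroup G)) hh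
  rw [Sylow.coe_subgroup_smul, Subgroup.pointwise_smul_def] at this
  simpa using this

theorem mem_zpowers_conj {x y h : G}
    (e : (Subgroup.zpowers x).map (MulAut.conj h).toMonoidHom = Subgroup.zpowers y) :
    h⁻¹ * y * h ∈ Subgroup.zpowers x ∧ h * x * h⁻¹ ∈ Subgroup.zpowers y := by
  constructor
  · have : y ∈ (Subgroup.zpowers x).map (MulAut.conj h).toMonoidHom := e ▸ Subgroup.mem_zpowers y
    obtain ⟨z, hz, rfl⟩ := this
    simpa [mul_assoc] using hz
  · rw [← e]
    exact ⟨x, Subgroup.mem_zpowers x, by simp⟩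

theorem commute_of_mem_zpowers {g x z : G} (hz : z ∈ Subgroup.zpowers x) (h : Commute g z) (hx : x ∈ Subgroup.zpowers z) :
    Commute g x := by
  obtain ⟨k, rfl⟩ := Subgroup.mem_zpowers_iff.mp hx
  exact h.zpow_right k

theorem mem_zpowers_of_prime {x z : G} (hx : (orderOf x).Prime) (hz : z ∈ Subgroup.zpowers x)
    (hne : z ≠ 1) : x ∈ Subgroup.zpowers z := by
  have hle : Subgroup.zpowers z ≤ Subgroup.zpowers x := Subgroup.zpowers_le.mpr hz
  have hd : orderOf z ∣ orderOf x := by
    rw [← Nat.card_zpowers, ← Nat.card_zpowers]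
    exact Subgroup.card_dvd_of_le hle
  rcases (Nat.dvd_prime hx).mp hd with h | h
  · exact absurd (orderOf_eq_one_iff.mp h) hne
  · have := Subgroup.eq_of_le_of_card_ge hle (by rw [Nat.card_zpowers, Nat.card_zpowers, h])
    rw [this]
    exact Subgroup.mem_zpowers x

/-- A conjugate of `g` commutes with `x` if a power of `g` has order `p = orderOf x`. -/
theorem exists_conj_commute [Fact p.Prime] (hp : p.Prime) (hpp : ¬ p ^ 2 ∣ Nat.card G) {x g : G} (hx : orderOf x = p)
    (hg : p ∣ orderOf g) : ∃ g' : G, orderOf g' = orderOf g ∧ Commute g' x := by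
  set y := g ^ (orderOf g / p)
  have hy : orderOf y = p := orderOf_pow_orderOf_div (orderOf_pos g).ne' hg
  obtain ⟨h, e⟩ := exists_map_zpowers hp hpp hx hy
  obtain ⟨h1, -⟩ := mem_zpowers_conj e
  refine ⟨h⁻¹ * g * h, ?_, ?_⟩
  · have := orderOf_injective (MulAut.conj h⁻¹).toMonoidHom (MulAut.conj h⁻¹).injective g
    simpa [mul_assoc] using this
  · refine commute_of_mem_zpowers h1 ?_ (mem_zpowers_of_prime (hx ▸ hp) h1 ?_)
    · have : Commute g y := Commute.self_pow g _
      have e := this.eq
      change h⁻¹ * g * h * (h⁻¹ * y * h) = h⁻¹ * y * h * (h⁻¹ * g * h)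
      calc h⁻¹ * g * h * (h⁻¹ * y * h) = h⁻¹ * (g * y) * h := by group
        _ = h⁻¹ * (y * g) * h := by rw [e]
        _ = h⁻¹ * y * h * (h⁻¹ * g * h) := by group
    · intro hh
      have : y = 1 := by
        calc y = h * (h⁻¹ * y * h) * h⁻¹ := by group
          _ = 1 := by rw [hh]; group
      rw [this, orderOf_one] at hy
      exact hp.ne_one hy.symm

end General

/-- A divisor of `1320` congruent to `1` modulo `19` is at most `20`. -/
theorem le_twenty : ∀ n ∈ Nat.divisors 1320, n % 19 = 1 → n ≤ 20 := by decide +kernel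

theorem not_commute_jW (hcard : Nat.card J1 = 175560) {y : J1} (hy : orderOf y = 7) : ¬ Commute y jW := by
  intro hc
  haveI : Fact (Nat.Prime 19) := ⟨by norm_num⟩
  haveI : Fact (Nat.Prime 7) := ⟨by norm_num⟩
  have h7 : ¬ 7 ^ 2 ∣ Nat.card J1 := by rw [hcard]; norm_num
  have hWc : Nat.card (Subgroup.zpowers jW) = 19 ^ (Nat.card J1).factorization 19 := by
    have h1 : (175560 : ℕ).factorization 19 = 1 := by
      rw [Nat.factorization_def _ (by norm_num : Nat.Prime 19)]
      rw [show (175560 : ℕ) = 19 ^ 1 * 9240 by norm_num, padicValNat.mul (by norm_num) (by norm_num),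
        padicValNat.prime_pow, padicValNat.eq_zero_of_not_dvd (by norm_num)]
    rw [Nat.card_zpowers, orderOf_jW, hcard, h1, pow_one]
  set P0 : Sylow 19 J1 := Sylow.ofCard (Subgroup.zpowers jW) hWc with hP0
  have hP0coe : (P0 : Subgroup J1) = Subgroup.zpowers jW := rfl
  have hyN : y ∈ Subgroup.normalizer (P0 : Set J1) := by
    rw [← Sylow.coe_coe, hP0coe]
    refine Subgroup.mem_normalizer_iff.mpr fun z => ?_
    constructor
    · intro hz
      obtain ⟨k, rfl⟩ := Subgroup.mem_zpowers_iff.mp hz
      rw [(hc.zpow_right k).eq, mul_inv_cancel_right]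
      exact hz
    · intro hz
      obtain ⟨k, hk⟩ := Subgroup.mem_zpowers_iff.mp hz
      have hz' : z = y⁻¹ * (y * z * y⁻¹) * y := by group
      rw [hz', ← hk, mul_assoc, ← (hc.zpow_right k).eq, inv_mul_cancel_left]
      exact Subgroup.mem_zpowers_iff.mpr ⟨k, rfl⟩
  have hn : Nat.card (Sylow 19 J1) ≤ 20 := by
    have hN : Nat.card (Sylow 19 J1) * Nat.card (Subgroup.normalizer (P0 : Set J1)) = 175560 := by
      rw [P0.card_eq_index_normalizer, Subgroup.index_mul_card, hcard]
    have d7 : 7 ∣ Nat.card (Subgroup.normalizer (P0 : Set J1)) := by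
      have := Subgroup.card_dvd_of_le (Subgroup.zpowers_le.mpr hyN)
      rwa [Nat.card_zpowers, hy] at this
    have d19 : 19 ∣ Nat.card (Subgroup.normalizer (P0 : Set J1)) := by
      have := Subgroup.card_dvd_of_le (Subgroup.le_normalizer (H := (P0 : Subgroup J1)))
      rwa [show Nat.card (P0 : Subgroup J1) = 19 by rw [hP0coe, Nat.card_zpowers, orderOf_jW]] at this
    obtain ⟨m, hm⟩ := Nat.Coprime.mul_dvd_of_dvd_of_dvd (by norm_num : Nat.Coprime 7 19) d7 d19
    rw [hm] at hN
    have hd : Nat.card (Sylow 19 J1) ∣ 1320 := ⟨m, by nlinarith⟩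
    exact le_twenty _ (Nat.mem_divisors.mpr ⟨hd, by norm_num⟩)
      (card_sylow_modEq_one 19 J1)
  have hfix0 : y • P0 = P0 := Sylow.smul_eq_iff_mem_normalizer.mpr hyN
  have hW0 : jW • P0 = P0 := Sylow.smul_eq_iff_mem_normalizer.mpr (Subgroup.le_normalizer (Subgroup.mem_zpowers jW))
  have hall : ∀ Q : Sylow 19 J1, y • Q = Q := by
    intro Q
    by_cases hQ : Q = P0
    · rw [hQ]; exact hfix0
    · classical
      haveI := Fintype.ofFinite (Sylow 19 J1)
      have hW1 : jW • Q ≠ Q := by
        intro e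
        have hle : (P0 : Subgroup J1) ≤ Subgroup.normalizer (Q : Set J1) := by
          rw [hP0coe, Subgroup.zpowers_le]
          exact Sylow.smul_eq_iff_mem_normalizer.mp e
        have hfix : P0.1 ≤ Q.1 := by
          have := P0.2.inf_normalizer_sylow Q
          rw [inf_eq_left.mpr hle] at this
          exact inf_eq_left.mp this.symm
        exact hQ (Sylow.ext (P0.3 Q.2 hfix))
      have hinj : ∀ i : ℕ, jW ^ i • Q = Q → 19 ∣ i := by
        intro i hi
        by_contra hndvd
        have hcop : Nat.Coprime i 19 := Nat.Coprime.symm ((Nat.Prime.coprime_iff_not_dvd (by norm_num)).mpr hndvd)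
        obtain ⟨j, hj⟩ := exists_pow_eq_self_of_coprime (orderOf_jW.symm ▸ hcop : Nat.Coprime i (orderOf jW))
        refine hW1 ?_
        rw [← hj]
        clear hj
        induction j with
        | zero => simp
        | succ j ih => rw [pow_succ, mul_smul, hi, ih]
      let O : Finset (Sylow 19 J1) := (Finset.range 19).image fun i => jW ^ i • Q
      have hO : O.card = 19 := by
        rw [Finset.card_image_of_injOn, Finset.card_range]
        intro i hi j hj e
        simp only [Finset.coe_range, Set.mem_Iio] at hi hj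
        rcases le_total i j with h | h
        · have := hinj (j - i) (MulAction.injective (jW ^ i) (by
            simp only []; rw [← mul_smul, ← pow_add, Nat.add_sub_cancel' h]; exact e.symm))
          omega
        · have := hinj (i - j) (MulAction.injective (jW ^ j) (by
            simp only []; rw [← mul_smul, ← pow_add, Nat.add_sub_cancel' h]; exact e))
          omega
      have hP : P0 ∉ O := by
        intro h
        obtain ⟨i, -, hi⟩ := Finset.mem_image.mp h
        have hfixpow : ∀ i : ℕ, jW ^ i • P0 = P0 := fun i => by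
          induction i with
          | zero => simp
          | succ i ih => rw [pow_succ, mul_smul, hW0, ih]
        exact hQ (MulAction.injective (jW ^ i) (hi.trans (hfixpow i).symm))
      have huniv : insert P0 O = Finset.univ := by
        refine Finset.eq_univ_of_card _ (le_antisymm (Finset.card_le_univ _) ?_)
        rw [Finset.card_insert_of_notMem hP, hO, ← Nat.card_eq_fintype_card]
        exact hn
      have hyQ : y • Q ∈ insert P0 O := by rw [huniv]; exact Finset.mem_univ _
      rcases Finset.mem_insert.mp hyQ with h | h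
      · exact absurd (MulAction.injective y (h.trans hfix0.symm)) hQ
      · obtain ⟨i, hi19, hi⟩ := Finset.mem_image.mp h
        have hpow : ∀ k : ℕ, y ^ k • Q = jW ^ (i * k) • Q := fun k => by
          induction k with
          | zero => simp
          | succ k ih =>
            rw [pow_succ, mul_smul, ← hi, ← mul_smul, ((hc.pow_pow k i)).eq, mul_smul, ih, ← mul_smul,
              ← pow_add]
            ring_nf
        have h7 := hpow 7
        have hy7 := pow_orderOf_eq_one y
        rw [hy] at hy7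
        rw [hy7, one_smul] at h7
        have := hinj _ h7.symm
        have hi0 : i = 0 := by
          rcases (Nat.Prime.dvd_mul (by norm_num : Nat.Prime 19)).mp this with h | h
          · exact Nat.eq_zero_of_dvd_of_lt h (Finset.mem_range.mp hi19)
          · norm_num at h
        rw [← hi, hi0, pow_zero, one_smul]
  obtain ⟨h, e⟩ := exists_map_zpowers (by norm_num : Nat.Prime 7) h7 hy orderOf_jX
  obtain ⟨h1, h2⟩ := mem_zpowers_conj e
  obtain ⟨k, hk⟩ := Subgroup.mem_zpowers_iff.mp h1
  have hX0 : jX • P0 = P0 := by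
    have hX : jX = h * y ^ k * h⁻¹ := by rw [hk]; group
    have hk' : ∀ Q : Sylow 19 J1, y ^ k • Q = Q := fun Q => by
      have : y ∈ MulAction.stabilizer J1 Q := hall Q
      exact Subgroup.zpow_mem _ this k
    rw [hX, mul_smul, mul_smul, hk', ← mul_smul, mul_inv_cancel, one_smul]
  have hmem : jX * jW * jX⁻¹ ∈ Subgroup.zpowers jW := by
    have := (Subgroup.mem_normalizer_iff.mp (Sylow.smul_eq_iff_mem_normalizer.mp hX0) jW).mp
      (Subgroup.mem_zpowers jW)
    exact this
  obtain ⟨j, hj⟩ := Subgroup.mem_zpowers_iff.mp hmem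
  refine gW_noncomm ?_
  have hcomm : jW * (jX * jW * jX⁻¹) = jX * jW * jX⁻¹ * jW := by
    rw [← hj]; exact ((Commute.refl jW).zpow_right j).eq
  exact congrArg Subtype.val hcomm

theorem orderOf_eq_eleven (hcard : Nat.card J1 = 175560) {g : J1} (h : 11 ∣ orderOf g) : orderOf g = 11 := by
  haveI : Fact (Nat.Prime 11) := ⟨by norm_num⟩
  obtain ⟨g', ho, hc⟩ := exists_conj_commute (by norm_num : Nat.Prime 11) (by rw [hcard]; norm_num) orderOf_jU h
  have h1 : (g' : GL (Fin 7) (ZMod 11)) ^ 11 = 1 :=
    pow_eleven_eq_one_of_commute_gU g'.2 (congrArg Subtype.val hc.eq)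
  have h2 : g' ^ 11 = 1 := Subtype.ext (by rw [SubmonoidClass.coe_pow]; exact h1)
  rw [← ho] at h ⊢
  exact Nat.dvd_antisymm (orderOf_dvd_of_pow_eq_one h2) h

theorem orderOf_eq_seven (hcard : Nat.card J1 = 175560) {g : J1} (h : 7 ∣ orderOf g) : orderOf g = 7 := by
  haveI : Fact (Nat.Prime 7) := ⟨by norm_num⟩
  haveI : Fact (Nat.Prime 19) := ⟨by norm_num⟩
  obtain ⟨g', ho, hc⟩ := exists_conj_commute (by norm_num : Nat.Prime 7) (by rw [hcard]; norm_num) orderOf_jX h
  rw [← ho] at h ⊢
  have h1331 : ∀ z : J1, Commute z jX → z ^ 1331 = z := fun z hz => by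
    refine Subtype.ext ?_
    rw [SubmonoidClass.coe_pow]
    exact pow_1331_of_commute_jankoX (congrArg Subtype.val hz.eq)
  have hd : orderOf g' ∣ 1330 := by
    refine orderOf_dvd_of_pow_eq_one ?_
    have := h1331 g' hc
    rw [pow_succ] at this
    exact mul_eq_right.mp this
  have key : ∀ r : ℕ, r.Prime → r ∣ orderOf g' → r = 7 := by
    intro r hr hrd
    have hr4 : r ∈ ({2, 5, 7, 19} : Finset ℕ) := by
      have hmem : r ∈ (1330 : ℕ).primeFactors := Nat.mem_primeFactors.mpr ⟨hr, hrd.trans hd, by norm_num⟩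
      rw [show (1330 : ℕ) = 2 * 5 * 7 * 19 by norm_num, Nat.primeFactors_mul (by norm_num) (by norm_num),
        Nat.primeFactors_mul (by norm_num) (by norm_num), Nat.primeFactors_mul (by norm_num) (by norm_num),
        Nat.Prime.primeFactors (by norm_num : Nat.Prime 2), Nat.Prime.primeFactors (by norm_num : Nat.Prime 5),
        Nat.Prime.primeFactors (by norm_num : Nat.Prime 7), Nat.Prime.primeFactors (by norm_num : Nat.Prime 19)] at hmem
      simpa [or_assoc] using hmem
    set z := g' ^ (orderOf g' / r)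
    have hz : orderOf z = r := orderOf_pow_orderOf_div (orderOf_pos g').ne' hrd
    have hzc : Commute z jX := hc.pow_left _
    have small : r ∣ 10 → False := by
      intro h10
      have hz10 : z ^ 10 = 1 := by rw [← orderOf_dvd_iff_pow_eq_one, hz]; exact h10
      have hz11 : z ^ 11 = z := by rw [pow_succ, hz10, one_mul]
      have h1 : (z : GL (Fin 7) (ZMod 11)) = 1 :=
        eq_one_of_commute_jankoX_of_pow z.2 (congrArg Subtype.val hzc.eq)
          ((SubmonoidClass.coe_pow z 11).symm.trans (congrArg Subtype.val hz11))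
      rw [← Subgroup.orderOf_coe, h1, orderOf_one] at hz
      exact hr.ne_one hz.symm
    simp only [Finset.mem_insert, Finset.mem_singleton] at hr4
    rcases hr4 with rfl | rfl | rfl | rfl
    · exact (small (by norm_num)).elim
    · exact (small (by norm_num)).elim
    · rfl
    · exfalso
      obtain ⟨k, e⟩ := exists_map_zpowers (by norm_num : Nat.Prime 19) (by rw [hcard]; norm_num) hz orderOf_jW
      obtain ⟨h1, -⟩ := mem_zpowers_conj e
      refine not_commute_jW hcard (y := k * jX * k⁻¹) ?_ ?_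
      · have := orderOf_injective (MulAut.conj k).toMonoidHom (MulAut.conj k).injective jX
        simpa [orderOf_jX] using this
      · obtain ⟨j, hj⟩ := Subgroup.mem_zpowers_iff.mp h1
        have hW : jW = k * z ^ j * k⁻¹ := by rw [hj]; group
        rw [hW]
        have hcz := (hzc.zpow_left j).symm.eq
        change k * jX * k⁻¹ * (k * z ^ j * k⁻¹) = k * z ^ j * k⁻¹ * (k * jX * k⁻¹)
        calc k * jX * k⁻¹ * (k * z ^ j * k⁻¹) = k * (jX * z ^ j) * k⁻¹ := by group
          _ = k * (z ^ j * jX) * k⁻¹ := by rw [hcz]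
          _ = k * z ^ j * k⁻¹ * (k * jX * k⁻¹) := by group
  obtain ⟨n, hn⟩ := h
  have hn1 : n = 1 := by
    by_contra hne
    obtain ⟨r, hr, hrn⟩ := Nat.exists_prime_and_dvd hne
    have h7 := key r hr (hn ▸ hrn.mul_left 7)
    subst h7
    obtain ⟨m, rfl⟩ := hrn
    have h49 : 49 ∣ orderOf g' := ⟨m, by rw [hn]; ring⟩
    have := h49.trans (orderOf_dvd_natCard g')
    rw [hcard] at this
    norm_num at this
  rw [hn, hn1]

/-- The element orders of `J1`, in the form used for the fourth power. -/
theorem orders_J1 (hcard : Nat.card J1 = 175560) : ∃ L : ℕ,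
    (∀ g : J1, orderOf g = 7 ∨ orderOf g = 11 ∨ orderOf g ∣ L) ∧
    ∃ x y z : J1, Nat.lcm (orderOf x) (Nat.lcm (orderOf y) (orderOf z)) = L := by
  classical
  have hbase : ∀ g : J1, orderOf g = 7 ∨ orderOf g = 11 ∨ orderOf g ∣ 2280 := by
    intro g
    by_cases h7 : 7 ∣ orderOf g
    · exact Or.inl (orderOf_eq_seven hcard h7)
    by_cases h11 : 11 ∣ orderOf g
    · exact Or.inr (Or.inl (orderOf_eq_eleven hcard h11))
    refine Or.inr (Or.inr ?_)
    have hd : orderOf g ∣ 7 * (11 * 2280) := by
      rw [show 7 * (11 * 2280) = 175560 by norm_num, ← hcard]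
      exact orderOf_dvd_natCard g
    have c7 := ((Nat.Prime.coprime_iff_not_dvd (by norm_num : Nat.Prime 7)).mpr h7).symm
    have c11 := ((Nat.Prime.coprime_iff_not_dvd (by norm_num : Nat.Prime 11)).mpr h11).symm
    exact c11.dvd_of_dvd_mul_left (c7.dvd_of_dvd_mul_left hd)
  have two : ∀ g : J1, ∀ k : ℕ, orderOf g ∣ 2280 → ¬ 2 ^ (k + 1) ∣ orderOf g → k ≤ 2 →
      orderOf g ∣ 2 ^ k * 285 := by
    intro g k h1 h2 hk
    obtain ⟨a, b, ha, hb, he⟩ := dvd_mul.mp (show orderOf g ∣ 2 ^ 3 * 285 from h1)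
    rw [he]
    refine mul_dvd_mul ?_ hb
    obtain ⟨j, hj, rfl⟩ := (Nat.dvd_prime_pow Nat.prime_two).mp ha
    refine pow_dvd_pow 2 ?_
    by_contra hlt
    exact h2 (he ▸ (pow_dvd_pow 2 (by omega : k + 1 ≤ j)).mul_right b)
  by_cases e8 : ∃ g : J1, 8 ∣ orderOf g
  · obtain ⟨g, hg⟩ := e8
    refine ⟨2280, hbase, g ^ (orderOf g / 8), jZ, jW, ?_⟩
    rw [orderOf_pow_orderOf_div (orderOf_pos g).ne' hg, orderOf_jZ, orderOf_jW]; rfl
  by_cases e4 : ∃ g : J1, 4 ∣ orderOf g
  · obtain ⟨g, hg⟩ := e4
    refine ⟨1140, fun x => ?_, g ^ (orderOf g / 4), jZ, jW, ?_⟩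
    · rcases hbase x with h | h | h
      · exact Or.inl h
      · exact Or.inr (Or.inl h)
      · exact Or.inr (Or.inr (two x 2 h (fun hh => e8 ⟨x, hh⟩) le_rfl))
    · rw [orderOf_pow_orderOf_div (orderOf_pos g).ne' hg, orderOf_jZ, orderOf_jW]; rfl
  haveI : Fact (Nat.Prime 2) := ⟨Nat.prime_two⟩
  obtain ⟨t, ht⟩ := exists_prime_orderOf_dvd_card' (G := J1) 2 (by rw [hcard]; norm_num)
  refine ⟨570, fun x => ?_, t, jZ, jW, by rw [ht, orderOf_jZ, orderOf_jW]; rfl⟩
  rcases hbase x with h | h | h
  · exact Or.inl h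
  · exact Or.inr (Or.inl h)
  · exact Or.inr (Or.inr (two x 1 h (fun hh => e4 ⟨x, hh⟩) (by omega)))

/-- Groups of arbitrarily large order with the spectrum of `J1 ^ 4`. -/
theorem exists_isospectral (hcard : Nat.card J1 = 175560) (N : ℕ) :
    ∃ (H : Type) (_ : Group H) (_ : Fintype H), N < Fintype.card H ∧
      Set.range (orderOf : H → ℕ) = Set.range (orderOf : J1 × J1 × J1 × J1 → ℕ) := by
  obtain ⟨L, hcase, hL⟩ := orders_J1 hcard
  haveI : Finite (Ext (N + 1)) := Finite.of_equiv _ SemidirectProduct.equivProd.symm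
  haveI := Fintype.ofFinite (J1 × J1 × J1 × Ext (N + 1))
  refine ⟨J1 × J1 × J1 × Ext (N + 1), inferInstance, inferInstance, ?_, ?_⟩
  · rw [← Nat.card_eq_fintype_card]
    have hinj : Function.Injective fun k : Ext (N + 1) => ((1, 1, 1, k) : J1 × J1 × J1 × Ext (N + 1)) :=
      fun a b h => congrArg (fun t : J1 × J1 × J1 × Ext (N + 1) => t.2.2.2) h
    have := lt_card (N + 1)
    have := Nat.card_le_card_of_injective _ hinj
    omega
  · exact range_orderOf_eq L hcase ⟨jX, orderOf_jX⟩ ⟨jU, orderOf_jU⟩ hL (orderOf_cases (N + 1))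
      (exists_orderOf_seven (N + 1)) (exists_orderOf_eleven (N + 1) (Nat.succ_pos N))

end Cfsg.Agent.H50.J1Spectrum
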