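import Mathlib
import Cfsg.Prelude.Def_Spor_J1

/-!
# The Janko matrices

Some words in the generators of the Janko group and their orders, computed with literal matrices.
-/

set_option autoImplicit false
set_option maxRecDepth 100000
set_option maxHeartbeats 4000000

namespace Cfsg.Agent.H50.J1Spectrum

open Cfsg.Spor

/-- The ambient matrices. -/
abbrev M7 := Matrix (Fin 7) (Fin 7) (ZMod 11)

def mU : M7 :=
  !![9, 4, 8, 0, 3, 8, 8; 10, 3, 6, 10, 7, 0, 2; 10, 0, 10, 6, 7, 2, 3; 7, 8, 7, 7, 6, 8, 8; 8, 8, 0, 9, 3, 4, 8; 0, 8, 9, 8, 3, 8, 4; 6, 2, 10, 10, 7, 3, 0]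

def mU2 : M7 :=
  !![9, 9, 9, 6, 2, 1, 6; 10, 2, 6, 10, 1, 8, 9; 9, 1, 6, 2, 8, 3, 2; 6, 5, 1, 6, 2, 7, 9; 1, 2, 5, 7, 2, 6, 5; 10, 8, 9, 2, 8, 5, 9; 3, 3, 4, 6, 5, 2, 10]

def mU4 : M7 :=
  !![10, 3, 7, 8, 10, 3, 0; 2, 1, 8, 9, 3, 2, 6; 3, 2, 2, 8, 0, 6, 4; 6, 6, 7, 8, 10, 2, 3; 6, 10, 10, 2, 3, 1, 2; 7, 10, 7, 4, 7, 8, 2; 8, 2, 4, 4, 8, 9, 8]

def mU8 : M7 :=
  !![3, 5, 10, 6, 9, 7, 8; 4, 7, 4, 1, 8, 4, 2; 8, 10, 1, 8, 3, 4, 0; 8, 3, 0, 9, 6, 9, 4; 9, 5, 3, 10, 10, 10, 9; 7, 3, 8, 2, 2, 4, 3; 9, 2, 8, 10, 2, 3, 6]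

def mW : M7 :=
  !![10, 8, 10, 8, 8, 2, 10; 8, 10, 8, 8, 2, 10, 10; 1, 3, 3, 9, 1, 1, 3; 3, 3, 9, 1, 1, 3, 1; 8, 2, 10, 10, 8, 10, 8; 9, 1, 1, 3, 1, 3, 3; 10, 10, 8, 10, 8, 8, 2]

def mW2 : M7 :=
  !![6, 2, 10, 10, 7, 3, 0; 2, 7, 3, 0, 8, 3, 3; 1, 8, 5, 1, 4, 0, 9; 1, 0, 1, 5, 4, 9, 8; 7, 8, 7, 7, 6, 8, 8; 8, 8, 0, 9, 3, 4, 8; 0, 3, 2, 3, 8, 3, 7]

def mW4 : M7 :=
  !![1, 10, 10, 9, 2, 6, 3; 10, 9, 8, 5, 9, 2, 3; 1, 3, 7, 9, 4, 7, 7; 2, 6, 9, 4, 3, 8, 0; 2, 9, 7, 8, 7, 3, 3; 5, 9, 7, 8, 8, 6, 10; 3, 3, 4, 0, 3, 1, 1]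

def mW8 : M7 :=
  !![7, 1, 1, 7, 10, 4, 7; 1, 2, 10, 7, 5, 7, 9; 10, 1, 5, 2, 2, 7, 7; 4, 4, 2, 2, 4, 0, 0; 10, 5, 9, 7, 10, 9, 4; 7, 4, 7, 0, 2, 0, 9; 7, 9, 4, 0, 4, 2, 0]

def mW16 : M7 :=
  !![1, 2, 6, 10, 10, 3, 9; 2, 1, 6, 2, 3, 8, 2; 5, 5, 1, 6, 9, 4, 9; 1, 9, 6, 4, 2, 6, 6; 10, 3, 2, 9, 8, 5, 2; 8, 3, 4, 6, 6, 9, 10; 9, 2, 2, 5, 2, 1, 5]

def mZ : M7 :=
  !![1, 8, 7, 9, 4, 4, 4; 2, 5, 9, 4, 3, 3, 0; 9, 9, 4, 3, 4, 3, 3; 6, 9, 4, 3, 3, 6, 10; 3, 8, 4, 0, 3, 10, 10; 10, 10, 1, 2, 9, 6, 3; 10, 2, 8, 5, 9, 9, 8]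

def mZ2 : M7 :=
  !![6, 8, 8, 7, 2, 5, 1; 2, 3, 5, 6, 8, 1, 4; 10, 6, 6, 5, 0, 2, 8; 5, 7, 7, 8, 9, 6, 7; 0, 2, 2, 9, 10, 8, 10; 3, 9, 7, 1, 1, 7, 8; 5, 0, 7, 8, 9, 8, 9]

def mZ3 : M7 :=
  !![4, 5, 8, 3, 7, 8, 7; 9, 3, 7, 8, 3, 3, 0; 8, 3, 3, 4, 0, 3, 2; 1, 4, 3, 0, 6, 2, 10; 0, 3, 3, 8, 2, 7, 3; 1, 4, 0, 9, 10, 3, 6; 5, 4, 2, 8, 10, 0, 10]

def mZ4 : M7 :=
  !![0, 9, 0, 8, 8, 1, 0; 0, 1, 0, 1, 1, 8, 0; 5, 0, 9, 0, 0, 0, 7; 9, 0, 7, 0, 0, 0, 5; 0, 8, 0, 8, 9, 1, 0; 7, 0, 5, 0, 0, 0, 9; 0, 8, 0, 9, 8, 1, 0]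

def mZ5 : M7 :=
  !![1, 4, 3, 7, 7, 7, 9; 3, 3, 3, 1, 4, 1, 0; 2, 3, 6, 8, 9, 0, 4; 1, 2, 10, 6, 10, 3, 9; 2, 7, 9, 3, 7, 3, 8; 10, 9, 9, 2, 8, 3, 5; 5, 8, 9, 6, 7, 10, 8]

def mZ8 : M7 :=
  !![2, 7, 6, 7, 4, 3, 5; 10, 9, 3, 9, 10, 9, 0; 1, 2, 4, 4, 8, 1, 8; 2, 0, 8, 7, 2, 3, 5; 2, 3, 6, 3, 1, 7, 5; 3, 3, 1, 5, 7, 5, 2; 0, 6, 2, 6, 3, 6, 10]

def mUKrylovInv : M7 :=
  !![1, 0, 2, 5, 5, 10, 1; 0, 10, 5, 7, 4, 10, 2; 0, 8, 1, 4, 8, 7, 10; 0, 3, 9, 9, 2, 7, 9; 0, 9, 5, 3, 1, 9, 3; 0, 1, 5, 4, 2, 7, 1; 0, 1, 9, 6, 0, 1, 2]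

def mXW : M7 :=
  !![8, 10, 8, 8, 2, 10, 10; 1, 3, 3, 9, 1, 1, 3; 3, 3, 9, 1, 1, 3, 1; 8, 2, 10, 10, 8, 10, 8; 9, 1, 1, 3, 1, 3, 3; 10, 10, 8, 10, 8, 8, 2; 10, 8, 10, 8, 8, 2, 10]

/-- `XYY`, of order 11. -/
def gU : GL (Fin 7) (ZMod 11) := jankoX * jankoY * jankoY

/-- `XXXY`, of order 19. -/
def gW : GL (Fin 7) (ZMod 11) := jankoX * jankoX * jankoX * jankoY

/-- `XXYYXYXYY`, of order 15. -/
def gZ : GL (Fin 7) (ZMod 11) :=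
  jankoX * jankoX * jankoY * jankoY * jankoX * jankoY * jankoX * jankoY * jankoY

theorem jankoX_mem : jankoX ∈ J1 := Subgroup.subset_closure (by simp)
theorem jankoY_mem : jankoY ∈ J1 := Subgroup.subset_closure (by simp)

theorem gU_mem : gU ∈ J1 := mul_mem (mul_mem jankoX_mem jankoY_mem) jankoY_mem

theorem gW_mem : gW ∈ J1 := mul_mem (mul_mem (mul_mem jankoX_mem jankoX_mem) jankoX_mem) jankoY_mem

theorem gZ_mem : gZ ∈ J1 :=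
  mul_mem (mul_mem (mul_mem (mul_mem (mul_mem (mul_mem (mul_mem (mul_mem jankoX_mem jankoX_mem)
    jankoY_mem) jankoY_mem) jankoX_mem) jankoY_mem) jankoX_mem) jankoY_mem) jankoY_mem

theorem mX_pow_two : jankoMatrixX * jankoMatrixX = Matrix.of fun r s : Fin 7 => if s = r + 2 then 1 else 0 := by
  decide +kernel

theorem mX_pow_four : (Matrix.of fun r s : Fin 7 => if s = r + 2 then 1 else 0 : M7) *
    (Matrix.of fun r s : Fin 7 => if s = r + 2 then 1 else 0) * jankoMatrixX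
      = Matrix.of fun r s : Fin 7 => if s = r + 5 then 1 else 0 := by decide +kernel

theorem mX_pow_seven : (Matrix.of fun r s : Fin 7 => if s = r + 5 then 1 else 0 : M7) *
    (Matrix.of fun r s : Fin 7 => if s = r + 2 then 1 else 0) = 1 := by decide +kernel

theorem mX_ne : jankoMatrixX ≠ 1 := by decide +kernel

theorem coe_gU : (gU : M7) = mU := by decide +kernel

theorem coe_gW : (gW : M7) = mW := by decide +kernel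

theorem mU_two : mU * mU = mU2 := by decide +kernel
theorem mU_four : mU2 * mU2 = mU4 := by decide +kernel
theorem mU_eight : mU4 * mU4 = mU8 := by decide +kernel
theorem mU_eleven : mU8 * mU2 * mU = 1 := by decide +kernel
theorem mU_ne : mU ≠ 1 := by decide +kernel

theorem mW_two : mW * mW = mW2 := by decide +kernel
theorem mW_four : mW2 * mW2 = mW4 := by decide +kernel
theorem mW_eight : mW4 * mW4 = mW8 := by decide +kernel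
theorem mW_sixteen : mW8 * mW8 = mW16 := by decide +kernel
theorem mW_nineteen : mW16 * mW2 * mW = 1 := by decide +kernel
theorem mW_ne : mW ≠ 1 := by decide +kernel

theorem mZ_two : mZ * mZ = mZ2 := by decide +kernel
theorem mZ_three : mZ2 * mZ = mZ3 := by decide +kernel
theorem mZ_four : mZ2 * mZ2 = mZ4 := by decide +kernel
theorem mZ_five : mZ4 * mZ = mZ5 := by decide +kernel
theorem mZ_eight : mZ4 * mZ4 = mZ8 := by decide +kernel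
theorem mZ_fifteen : mZ8 * mZ4 * mZ3 = 1 := by decide +kernel
theorem mZ3_ne : mZ3 ≠ 1 := by decide +kernel
theorem mZ5_ne : mZ5 ≠ 1 := by decide +kernel

theorem coe_gZ : (gZ : M7) = mZ := by decide +kernel

theorem mXW_eq : jankoMatrixX * mW = mXW := by decide +kernel

theorem mXW_noncomm : mW * (mXW * jankoMatrixX.transpose) ≠ (mXW * jankoMatrixX.transpose) * mW := by
  decide +kernel

theorem orderOf_jankoX : orderOf jankoX = 7 := by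
  haveI : Fact (Nat.Prime 7) := ⟨by norm_num⟩
  refine orderOf_eq_prime ?_ fun h => mX_ne (congrArg Units.val h)
  refine Units.ext ?_
  rw [Units.val_pow_eq_pow_val]
  change jankoMatrixX ^ 7 = 1
  rw [show jankoMatrixX ^ 7 = (jankoMatrixX * jankoMatrixX) * (jankoMatrixX * jankoMatrixX) * jankoMatrixX *
    (jankoMatrixX * jankoMatrixX) by noncomm_ring,
    mX_pow_two, mX_pow_four, mX_pow_seven]

theorem orderOf_gU : orderOf gU = 11 := by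
  haveI : Fact (Nat.Prime 11) := ⟨by norm_num⟩
  refine orderOf_eq_prime ?_ fun h => mU_ne (coe_gU ▸ congrArg Units.val h)
  refine Units.ext ?_
  rw [Units.val_pow_eq_pow_val, coe_gU, Units.val_one]
  have e2 : mU2 = mU ^ 2 := by rw [pow_two, mU_two]
  have e4 : mU4 = mU ^ 4 := by rw [← mU_four, e2, ← pow_add]
  have e8 : mU8 = mU ^ 8 := by rw [← mU_eight, e4, ← pow_add]
  have h := mU_eleven
  rw [e8, e2, ← pow_add, ← pow_succ] at h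
  exact h

theorem orderOf_gW : orderOf gW = 19 := by
  haveI : Fact (Nat.Prime 19) := ⟨by norm_num⟩
  refine orderOf_eq_prime ?_ fun h => mW_ne (coe_gW ▸ congrArg Units.val h)
  refine Units.ext ?_
  rw [Units.val_pow_eq_pow_val, coe_gW, Units.val_one]
  have e2 : mW2 = mW ^ 2 := by rw [pow_two, mW_two]
  have e4 : mW4 = mW ^ 4 := by rw [← mW_four, e2, ← pow_add]
  have e8 : mW8 = mW ^ 8 := by rw [← mW_eight, e4, ← pow_add]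
  have e16 : mW16 = mW ^ 16 := by rw [← mW_sixteen, e8, ← pow_add]
  have h := mW_nineteen
  rw [e16, e2, ← pow_add, ← pow_succ] at h
  exact h

theorem orderOf_gZ : orderOf gZ = 15 := by
  have e2 : mZ2 = mZ ^ 2 := by rw [pow_two, mZ_two]
  have e3 : mZ3 = mZ ^ 3 := by rw [← mZ_three, e2, ← pow_succ]
  have e4 : mZ4 = mZ ^ 4 := by rw [← mZ_four, e2, ← pow_add]
  have e5 : mZ5 = mZ ^ 5 := by rw [← mZ_five, e4, ← pow_succ]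
  have e8 : mZ8 = mZ ^ 8 := by rw [← mZ_eight, e4, ← pow_add]
  rw [orderOf_eq_iff (by norm_num : 0 < 15)]
  have h15 : mZ ^ 15 = 1 := by
    have h := mZ_fifteen
    rw [e8, e4, e3, ← pow_add, ← pow_add] at h
    exact h
  refine ⟨Units.ext (by rw [Units.val_pow_eq_pow_val, coe_gZ, h15, Units.val_one]), ?_⟩
  intro m hm hm0 h
  have hd : orderOf mZ ∣ m := by
    refine orderOf_dvd_of_pow_eq_one ?_
    rw [← coe_gZ, ← Units.val_pow_eq_pow_val, h, Units.val_one]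
  have hd15 : orderOf mZ ∣ 15 := orderOf_dvd_of_pow_eq_one h15
  have hle : orderOf mZ ≤ m := Nat.le_of_dvd hm0 hd
  have hne3 : ¬ orderOf mZ ∣ 3 := fun hh => mZ3_ne (e3 ▸ orderOf_dvd_iff_pow_eq_one.mp hh)
  have hne5 : ¬ orderOf mZ ∣ 5 := fun hh => mZ5_ne (e5 ▸ orderOf_dvd_iff_pow_eq_one.mp hh)
  have : orderOf mZ ∈ Nat.divisors 15 := Nat.mem_divisors.mpr ⟨hd15, by norm_num⟩
  rw [show Nat.divisors 15 = {1, 3, 5, 15} by decide] at this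
  simp only [Finset.mem_insert, Finset.mem_singleton] at this
  rcases this with e | e | e | e <;> rw [e] at hne3 hne5 hle
  · exact hne3 (one_dvd 3)
  · exact hne3 dvd_rfl
  · exact hne5 dvd_rfl
  · omega

theorem gW_noncomm : gW * (jankoX * gW * jankoX⁻¹) ≠ (jankoX * gW * jankoX⁻¹) * gW := by
  intro h
  have h' := congrArg Units.val h
  simp only [Units.val_mul] at h'
  rw [coe_gW] at h'
  change mW * (jankoMatrixX * mW * jankoMatrixX.transpose) = (jankoMatrixX * mW * jankoMatrixX.transpose) * mW at h'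
  rw [mXW_eq] at h'
  exact mXW_noncomm h'

end Cfsg.Agent.H50.J1Spectrum
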